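import Mathlib
import Cfsg.Agent.H19.Basic
import Cfsg.Agent.H20.Basic

/-!
A strongly closed central subgroup of involutions all of whose elements fix a unique coset of a
subgroup `M`: if two of its involutions are not conjugate, all conjugates lie in `M`.
-/

set_option autoImplicit false

namespace Cfsg.Agent.H35.Collins

open Subgroup

universe u

theorem conj_mem_of_not_conj : ∀ (n : ℕ) {H : Type u} [Group H] [Finite H], Nat.card H = n →
    ∀ (T : Sylow 2 H) (Z M : Subgroup H), Z ≤ (T : Subgroup H) → (T : Subgroup H) ≤ M →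
      (∀ z ∈ Z, z * z = 1) → (∀ z ∈ Z, ∀ t ∈ (T : Subgroup H), Commute z t) →
      (∀ z ∈ Z, ∀ g : H, g * z * g⁻¹ ∈ (T : Subgroup H) → g * z * g⁻¹ ∈ Z) →
      (∀ z ∈ Z, z ≠ 1 → ∀ h : H, h * z * h⁻¹ ∈ M → h ∈ M) →
      ∀ u ∈ Z, u ≠ 1 → ∀ v ∈ Z, v ≠ 1 → (∀ h : H, h * u * h⁻¹ ≠ v) →
      ∀ g : H, g * v * g⁻¹ ∈ M := by
  intro n
  induction n using Nat.strong_induction_on with
  | _ n ih =>
  intro H _ _ hcard T Z M hZT hTM hinv hcent hsc hM u hu hu1 v hv hv1 hne g
  haveI := Fact.mk Nat.prime_two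
  by_contra hg
  have hu2 : u⁻¹ = u := inv_eq_of_mul_eq_one_right (hinv u hu)
  have hv2 : v⁻¹ = v := inv_eq_of_mul_eq_one_right (hinv v hv)
  set v' := g * v * g⁻¹ with hv'
  have hv'2 : v' * v' = 1 := by
    rw [hv', show g * v * g⁻¹ * (g * v * g⁻¹) = g * (v * v) * g⁻¹ by group, hinv v hv]; group
  have hv'i : v'⁻¹ = v' := inv_eq_of_mul_eq_one_right hv'2
  clear_value v'
  -- the dihedral group generated by `u` and `v'`
  set d := u * v' with hd
  have hud : u * d * u⁻¹ = d⁻¹ := by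
    rw [hd, mul_inv_rev, hu2, hv'i, ← mul_assoc u u v', hinv u hu, one_mul]
  have hvd : v' * d * v'⁻¹ = d⁻¹ := by
    rw [hd, mul_inv_rev, hu2, hv'i, mul_assoc v' (u * v') v', mul_assoc u v' v', hv'2, mul_one]
  have conj_pow_inv : ∀ x : H, x * d * x⁻¹ = d⁻¹ → ∀ j : ℕ, x * d ^ j * x⁻¹ = (d ^ j)⁻¹ := by
    intro x hx j; rw [← conj_pow, hx, inv_pow]
  have hk : ∃ j, orderOf d = 2 * j ∧ 0 < j := by
    rcases Nat.even_or_odd (orderOf d) with ⟨j, hj⟩ | ⟨j, hj⟩
    · have hpos := orderOf_pos d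
      exact ⟨j, by omega, by omega⟩
    · exfalso
      have h1 : d ^ j * u * (d ^ j)⁻¹ = v' := by
        have h2 := conj_pow_inv u hud j
        have h3 : (d ^ j)⁻¹ * u = u * d ^ j := by rw [← h2]; group
        have h4 : u * (d ^ j)⁻¹ = d ^ j * u := by
          calc u * (d ^ j)⁻¹ = u * (u * d ^ j * u⁻¹) := by rw [h2]
            _ = (u * u) * (d ^ j * u⁻¹) := by group
            _ = d ^ j * u := by rw [hinv u hu, hu2, one_mul]
        have h5 : (d ^ j)⁻¹ * (d ^ j)⁻¹ = d := by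
          rw [← mul_inv_rev, ← pow_add, inv_eq_iff_mul_eq_one, ← pow_succ]
          rw [show j + j + 1 = orderOf d by omega, pow_orderOf_eq_one]
        calc d ^ j * u * (d ^ j)⁻¹ = u * ((d ^ j)⁻¹ * (d ^ j)⁻¹) := by rw [← h4]; group
          _ = u * d := by rw [h5]
          _ = v' := by rw [hd, ← mul_assoc, hinv u hu, one_mul]
      refine hne (g⁻¹ * d ^ j) ?_
      rw [show g⁻¹ * d ^ j * u * (g⁻¹ * d ^ j)⁻¹ = g⁻¹ * (d ^ j * u * (d ^ j)⁻¹) * g by group, h1, hv']
      group
  obtain ⟨j, hj, hj0⟩ := hk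
  set w := d ^ j with hw
  have hw1 : w ≠ 1 := by
    intro h
    have := Nat.le_of_dvd hj0 (orderOf_dvd_of_pow_eq_one h)
    omega
  have hw2 : w * w = 1 := by
    rw [hw, ← pow_add, show j + j = orderOf d by omega, pow_orderOf_eq_one]
  have hwi : w⁻¹ = w := inv_eq_of_mul_eq_one_right hw2
  have hwu : Commute u w := by
    have h := conj_pow_inv u hud j
    rw [← hw, hwi, mul_inv_eq_iff_eq_mul] at h
    exact h
  have hwv : Commute v' w := by
    have h := conj_pow_inv v' hvd j
    rw [← hw, hwi, mul_inv_eq_iff_eq_mul] at h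
    exact h
  -- move `w` into `T` inside `C(u)`
  have hTC : (T : Subgroup H) ≤ centralizer ({u} : Set H) := fun t ht =>
    mem_centralizer_singleton_iff.mpr (hcent u hu t ht).eq.symm
  let TC : Sylow 2 (centralizer ({u} : Set H)) := T.subtype hTC
  have hwC : w ∈ centralizer ({u} : Set H) := mem_centralizer_singleton_iff.mpr hwu.eq.symm
  have hwp : IsPGroup 2 (zpowers (⟨w, hwC⟩ : centralizer ({u} : Set H))) := by
    refine IsPGroup.of_card (n := 1) ?_
    rw [Nat.card_zpowers, pow_one]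
    exact orderOf_eq_prime (Subtype.ext (by simpa [pow_two] using hw2))
      fun h => hw1 (by simpa using congrArg Subtype.val h)
  obtain ⟨S', hS'⟩ := hwp.exists_le_sylow
  obtain ⟨c, hc⟩ := MulAction.exists_smul_eq (centralizer ({u} : Set H)) S' TC
  have hcw : (c : H) * w * (c : H)⁻¹ ∈ (T : Subgroup H) := by
    have h1 : c * ⟨w, hwC⟩ * c⁻¹ ∈ (TC : Subgroup (centralizer ({u} : Set H))) := by
      rw [← hc, Sylow.coe_subgroup_smul, H20.mem_conj_smul]
      simpa [mul_assoc] using hS' (mem_zpowers _)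
    rw [Sylow.coe_subtype, mem_subgroupOf] at h1
    simpa using h1
  have hcu : (c : H) * u * (c : H)⁻¹ = u := by
    rw [mul_inv_eq_iff_eq_mul]; exact mem_centralizer_singleton_iff.mp c.2
  have hcM : (c : H) ∈ M := hM u hu hu1 c (by rw [hcu]; exact hTM (hZT hu))
  set w' := (c : H) * w * (c : H)⁻¹ with hw'
  set v'' := (c : H) * v' * (c : H)⁻¹ with hv''
  have hv''e : v'' = (c * g) * v * (c * g)⁻¹ := by rw [hv'', hv']; group
  have hv''M : v'' ∉ M := fun h => hg (by
    have : v' = (c : H)⁻¹ * v'' * c := by rw [hv'']; group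
    rw [this]; exact mul_mem (mul_mem (inv_mem hcM) h) hcM)
  have hw'1 : w' ≠ 1 := fun h => hw1 (by
    have : w = (c : H)⁻¹ * w' * c := by rw [hw']; group
    rw [this, h]; group)
  have hvw' : Commute v'' w' := (hwv.map (MulAut.conj (c : H)).toMonoidHom)
  have hw'Z : w' ∈ Z → False := fun h => hv''M (hM w' h hw'1 v'' (by
    rw [hvw'.eq, mul_inv_cancel_right]; exact hTM hcw))
  have hvvM : ∀ h : H, h * v * h⁻¹ ∈ (T : Subgroup H) → h * v * h⁻¹ ∈ M := fun h hh => hTM hh
  clear_value w' v''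
  by_cases htop : centralizer ({w'} : Set H) = ⊤
  · -- `w'` is central: pass to the quotient
    have hcw' : ∀ x : H, Commute x w' := fun x =>
      mem_centralizer_singleton_iff.mp (htop.symm ▸ mem_top x)
    haveI hn : (zpowers w').Normal := by
      refine ⟨fun x hx y => ?_⟩
      obtain ⟨i, rfl⟩ := mem_zpowers_iff.mp hx
      rw [((hcw' y).zpow_right i).eq, mul_inv_cancel_right]; exact hx
    set f := QuotientGroup.mk' (zpowers w') with hf
    have hfs : Function.Surjective f := QuotientGroup.mk'_surjective _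
    have hker : f.ker = zpowers w' := QuotientGroup.ker_mk' _
    have hwT : zpowers w' ≤ (T : Subgroup H) := zpowers_le.mpr hcw
    have hcT : ((T : Subgroup H).map f).comap f = T := by
      rw [comap_map_eq, hker, sup_eq_left.mpr hwT]
    have hcM' : (M.map f).comap f = M := by
      rw [comap_map_eq, hker, sup_eq_left.mpr (hwT.trans hTM)]
    have hnotker : ∀ z ∈ Z, f z = 1 → z = 1 := by
      intro z hz h
      have h1 : z ∈ zpowers w' := (QuotientGroup.eq_one_iff z).mp h
      obtain ⟨i, rfl⟩ := mem_zpowers_iff.mp h1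
      have h2 : w' ^ (2 : ℤ) = 1 := by
        rw [zpow_two, hw', show (c : H) * w * (c : H)⁻¹ * ((c : H) * w * (c : H)⁻¹) =
          (c : H) * (w * w) * (c : H)⁻¹ by group, hw2]; group
      rcases Int.even_or_odd i with ⟨k, hk⟩ | ⟨k, hk⟩
      · rw [hk, ← two_mul, zpow_mul, h2, one_zpow]
      · exfalso; apply hw'Z
        rw [hk, zpow_add, zpow_mul, h2, one_zpow, one_mul, zpow_one] at hz
        exact hz
    let T' : Sylow 2 (H ⧸ zpowers w') := T.mapSurjective hfs
    have hT' : (T' : Subgroup (H ⧸ zpowers w')) = (T : Subgroup H).map f := rfl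
    have hlt : Nat.card (H ⧸ zpowers w') < n := by
      rw [← hcard, card_eq_card_quotient_mul_card_subgroup (zpowers w')]
      exact lt_mul_of_one_lt_right Nat.card_pos
        ((zpowers w').one_lt_card_iff_ne_bot.mpr (by simpa [zpowers_eq_bot] using hw'1))
    have h := ih _ hlt rfl T' (Z.map f) (M.map f) (hT' ▸ map_mono hZT) (hT' ▸ map_mono hTM)
      (by rintro _ ⟨z, hz, rfl⟩; rw [← map_mul, hinv z hz, map_one])
      (by rintro _ ⟨z, hz, rfl⟩ t ht; rw [hT'] at ht; obtain ⟨t, ht, rfl⟩ := ht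
          exact (hcent z hz t ht).map f)
      (by rintro _ ⟨z, hz, rfl⟩ y hy; obtain ⟨y, rfl⟩ := hfs y
          rw [hT', ← map_inv, ← map_mul, ← map_mul] at hy
          rw [← map_inv, ← map_mul, ← map_mul]
          have h1 : y * z * y⁻¹ ∈ (T : Subgroup H) := by rw [← hcT]; exact hy
          exact mem_map_of_mem f (hsc z hz y h1))
      (by rintro _ ⟨z, hz, rfl⟩ hz1 y hy; obtain ⟨y, rfl⟩ := hfs y
          rw [← map_inv, ← map_mul, ← map_mul] at hy
          have h1 : y * z * y⁻¹ ∈ M := by rw [← hcM']; exact hy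
          exact mem_map_of_mem f (hM z hz (fun e => hz1 (by rw [e, map_one])) y h1))
      (f u) (mem_map_of_mem f hu) (fun e => hu1 (hnotker u hu e))
      (f v) (mem_map_of_mem f hv) (fun e => hv1 (hnotker v hv e))
      (by
        intro y hy; obtain ⟨y, rfl⟩ := hfs y
        rw [← map_inv, ← map_mul, ← map_mul] at hy
        have h1 : y * u * y⁻¹ ∈ (T : Subgroup H) := by
          rw [← hcT, mem_comap, hy]; exact mem_map_of_mem f (hZT hv)
        have h2 := hsc u hu y h1
        have h3 : f ((y * u * y⁻¹) * v⁻¹) = 1 := by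
          simp only [map_mul, map_inv] at hy ⊢
          rw [hy, mul_inv_cancel]
        have h4 := hnotker _ (mul_mem h2 (inv_mem hv)) h3
        exact hne y (mul_inv_eq_one.mp h4))
      (f (c * g))
    refine hv''M ?_
    rw [← hcM', mem_comap, hv''e, map_mul, map_mul, map_inv]
    exact h
  · -- pass to the centraliser of `w'`
    set H1 := centralizer ({w'} : Set H) with hH1
    have hZH1 : Z ≤ H1 := fun z hz => mem_centralizer_singleton_iff.mpr (hcent z hz w' hcw).eq
    obtain ⟨T1, hT1⟩ := (T.2.to_le (inf_le_left : (T : Subgroup H) ⊓ H1 ≤ T)).of_equiv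
      (subgroupOfEquivOfLe inf_le_right).symm |>.exists_le_sylow
    obtain ⟨T2, hT2⟩ := (T1.2.map H1.subtype).exists_le_sylow
    obtain ⟨h, hh⟩ := MulAction.exists_smul_eq H T T2
    have hconj : ∀ x : H, x ∈ (T1 : Subgroup H1).map H1.subtype → h⁻¹ * x * h ∈ (T : Subgroup H) := by
      intro x hx
      have h1 := hT2 hx
      rwa [← hh, Sylow.coe_subgroup_smul, H20.mem_conj_smul] at h1
    have hZT1 : ∀ z (hz : z ∈ Z), (⟨z, hZH1 hz⟩ : H1) ∈ (T1 : Subgroup H1) := fun z hz =>
      hT1 (mem_subgroupOf.mpr (mem_inf.mpr ⟨hZT hz, hZH1 hz⟩))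
    have hZh : ∀ z ∈ Z, h⁻¹ * z * h ∈ Z := fun z hz => by
      have h1 := hconj z ⟨⟨z, hZH1 hz⟩, hZT1 z hz, rfl⟩
      have h2 := hsc z hz h⁻¹ (by rwa [inv_inv])
      rwa [inv_inv] at h2
    have hhM : h ∈ M := by
      have h1 := hM u hu hu1 h⁻¹ (by rw [inv_inv]; exact hTM (hZT (hZh u hu)))
      simpa using inv_mem h1
    -- every element of `Z` conjugates back
    have hZback : ∀ x ∈ Z, h * x * h⁻¹ ∈ Z := by
      have hsub : Z.map (MulAut.conj h⁻¹).toMonoidHom = Z := by
        refine eq_of_le_of_card_ge ?_ (le_of_eq (card_map_of_injective (MulAut.conj h⁻¹).injective).symm)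
        rintro _ ⟨z, hz, rfl⟩
        simpa using hZh z hz
      intro x hx
      rw [← hsub] at hx
      obtain ⟨z, hz, rfl⟩ := hx
      simpa [mul_assoc] using hz
    have hlt : Nat.card H1 < n := hcard ▸ H19.card_lt_of_ne_top H1 htop
    have hv''H1 : v'' ∈ H1 := mem_centralizer_singleton_iff.mpr hvw'.eq
    -- a conjugate of `v''` inside `T1`
    have hvp : IsPGroup 2 (zpowers (⟨v'', hv''H1⟩ : H1)) := by
      intro x
      obtain ⟨i, hi⟩ := mem_zpowers_iff.mp x.2
      refine ⟨1, Subtype.ext ?_⟩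
      rw [pow_one, SubmonoidClass.coe_pow, ← hi, ← zpow_natCast, ← zpow_mul, mul_comm, zpow_mul,
        OneMemClass.coe_one]
      have : (⟨v'', hv''H1⟩ : H1) ^ ((2 : ℕ) : ℤ) = 1 := by
        rw [zpow_natCast]
        refine Subtype.ext ?_
        rw [SubmonoidClass.coe_pow, pow_two, OneMemClass.coe_one]
        show v'' * v'' = 1
        rw [hv''e]
        rw [show c * g * v * (c * g)⁻¹ * (c * g * v * (c * g)⁻¹) = c * g * (v * v) * (c * g)⁻¹ by group,
          hinv v hv]
        group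
      rw [this, one_zpow]
    obtain ⟨S1, hS1⟩ := hvp.exists_le_sylow
    obtain ⟨a, ha⟩ := MulAction.exists_smul_eq H1 S1 T1
    set v1 : H1 := a * ⟨v'', hv''H1⟩ * a⁻¹ with hv1'
    have hv1T : v1 ∈ (T1 : Subgroup H1) := by
      rw [← ha, Sylow.coe_subgroup_smul, H20.mem_conj_smul, hv1']
      simpa [mul_assoc] using hS1 (mem_zpowers _)
    have hv1Z : (v1 : H) ∈ Z := by
      have h1 := hconj _ ⟨v1, hv1T, rfl⟩
      have e : h⁻¹ * (v1 : H) * h = (h⁻¹ * a * (c * g)) * v * (h⁻¹ * a * (c * g))⁻¹ := by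
        simp only [hv1', Subgroup.coe_mul, Subgroup.coe_inv, hv''e]; group
      have h2 := hsc v hv _ (e ▸ h1)
      rw [← e] at h2
      simpa [mul_assoc] using hZback _ h2
    have hT1M : (T1 : Subgroup H1) ≤ M.subgroupOf H1 := by
      intro x hx
      rw [mem_subgroupOf, show (x : H) = h * (h⁻¹ * x * h) * h⁻¹ by group]
      exact mul_mem (mul_mem hhM (hTM (hconj _ ⟨x, hx, rfl⟩))) (inv_mem hhM)
    have key := ih _ hlt rfl T1 (Z.subgroupOf H1) (M.subgroupOf H1)
      (fun x hx => hZT1 x (mem_subgroupOf.mp hx)) hT1M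
      (fun x hx => Subtype.ext (hinv x (mem_subgroupOf.mp hx)))
      (fun x hx t ht => Subtype.ext (by
        have h1 := hcent _ (hZh x (mem_subgroupOf.mp hx)) _ (hconj _ ⟨t, ht, rfl⟩)
        have h2 := h1.map (MulAut.conj h).toMonoidHom
        simpa [mul_assoc] using h2.eq))
      (fun x hx y hy => mem_subgroupOf.mpr (by
        have h1 := hconj _ ⟨_, hy, rfl⟩
        have e : h⁻¹ * ((y * x * y⁻¹ : H1) : H) * h = (h⁻¹ * y) * x * (h⁻¹ * y)⁻¹ := by
          simp only [Subgroup.coe_mul, Subgroup.coe_inv]; group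
        have h2 := hsc x (mem_subgroupOf.mp hx) (h⁻¹ * y) (e ▸ h1)
        rw [← e] at h2
        simpa [mul_assoc] using hZback _ h2))
      (fun x hx hx1 y hy => mem_subgroupOf.mpr (hM x (mem_subgroupOf.mp hx)
        (fun e => hx1 (Subtype.ext e)) y (mem_subgroupOf.mp hy)))
      ⟨u, hZH1 hu⟩ (mem_subgroupOf.mpr hu) (fun e => hu1 (congrArg Subtype.val e))
      v1 (mem_subgroupOf.mpr hv1Z) (fun e => hv1 (by
        have e1 : (v1 : H) = 1 := by rw [e]; rfl
        simp only [hv1', Subgroup.coe_mul, Subgroup.coe_inv, hv''e] at e1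
        rwa [show (a : H) * (c * g * v * (c * g)⁻¹) * (a : H)⁻¹ =
          ((a : H) * (c * g)) * v * ((a : H) * (c * g))⁻¹ by group, conj_eq_one_iff] at e1))
      (fun y hy => hne ((a * (c * g) : H)⁻¹ * y) (by
        have e1 : (y : H) * u * (y : H)⁻¹ = v1 := by rw [← hy]; simp
        simp only [hv1', Subgroup.coe_mul, Subgroup.coe_inv, hv''e] at e1
        rw [show ((a : H) * (c * g))⁻¹ * y * u * (((a : H) * (c * g))⁻¹ * y)⁻¹ =
          ((a : H) * (c * g))⁻¹ * ((y : H) * u * (y : H)⁻¹) * ((a : H) * (c * g)) by group, e1]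
        group))
      a⁻¹
    refine hv''M ?_
    have h1 := mem_subgroupOf.mp key
    simp only [hv1', Subgroup.coe_mul, Subgroup.coe_inv] at h1
    simpa [mul_assoc] using h1

end Cfsg.Agent.H35.Collins
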