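import Cfsg.Agent.H35.Collins.Setting

/-!
A minimal counterexample is simple: a normal subgroup moved by the acting element would be abelian,
because the products of its elements with their images are fixed points.
-/

set_option autoImplicit false

namespace Cfsg.Agent.H35.Collins

open Subgroup

variable {X : Type*} [Group X]

theorem sup_le_normalizer {G A B : Subgroup X} (hA : G ≤ normalizer (A : Set X))
    (hB : G ≤ normalizer (B : Set X)) : G ≤ normalizer ((A ⊔ B : Subgroup X) : Set X) := by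
  intro g hg
  have h1 := hA hg
  have h2 := hB hg
  rw [mem_normalizer_iff_map_conj_eq] at h1 h2 ⊢
  rw [Subgroup.map_sup]
  exact congrArg₂ (· ⊔ ·) h1 h2

theorem commute_of_disjoint_normalized {G A B : Subgroup X} (hAG : A ≤ G) (hBG : B ≤ G)
    (hA : G ≤ normalizer (A : Set X)) (hB : G ≤ normalizer (B : Set X)) (hAB : A ⊓ B = ⊥)
    {a b : X} (ha : a ∈ A) (hb : b ∈ B) : Commute a b := by
  have h1 : a * b * a⁻¹ * b⁻¹ ∈ A ⊓ B := by
    refine mem_inf.mpr ⟨?_, mul_mem ((mem_normalizer_iff.mp (hB (hAG ha)) b).mp hb) (inv_mem hb)⟩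
    rw [show a * b * a⁻¹ * b⁻¹ = a * (b * a⁻¹ * b⁻¹) by group]
    exact mul_mem ha ((mem_normalizer_iff.mp (hA (hBG hb)) a⁻¹).mp (inv_mem ha))
  rw [hAB, mem_bot, mul_inv_eq_one, mul_inv_eq_iff_eq_mul] at h1
  exact h1

variable [Finite X] {s : X} {G : Subgroup X}

/-- If only `⊥` and `G` are invariant under `G` and `s`, then a subgroup normalised by `G` is one of
them or `G` is abelian. -/
theorem Good.normalized_eq (h : Good s G)
    (hmin : ∀ N : Subgroup X, G ≤ normalizer (N : Set X) → s ∈ normalizer (N : Set X) → N ≤ G →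
      N = ⊥ ∨ N = G)
    (hna : ¬ ∀ a ∈ G, ∀ b ∈ G, Commute a b) {M₀ : Subgroup X} (hM₀ : M₀ ≤ G)
    (hn₀ : G ≤ normalizer (M₀ : Set X)) : M₀ = ⊥ ∨ M₀ = G := by
  by_contra hne
  push_neg at hne
  obtain ⟨M, ⟨hMle, hMn, hM1⟩, hMmin⟩ := (Set.toFinite {M : Subgroup X | M ≤ M₀ ∧
    G ≤ normalizer (M : Set X) ∧ M ≠ ⊥}).exists_minimal ⟨M₀, le_rfl, hn₀, hne.1⟩
  have hMG : M ≤ G := hMle.trans hM₀
  have hmin' : ∀ T : Subgroup X, T ≤ M → G ≤ normalizer (T : Set X) → T ≠ ⊥ → T = M :=
    fun T h1 h2 h3 => le_antisymm h1 (hMmin ⟨h1.trans hMle, h2, h3⟩ h1)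
  set c := (MulAut.conj s).toMonoidHom with hc
  have hcinj : Function.Injective c := (MulAut.conj s).injective
  have hc3 : ∀ x, c (c (c x)) = x := fun x => by
    show s * (s * (s * x * s⁻¹) * s⁻¹) * s⁻¹ = x
    calc s * (s * (s * x * s⁻¹) * s⁻¹) * s⁻¹ = s ^ 3 * x * (s ^ 3)⁻¹ := by
          rw [pow_succ, pow_two]; group
      _ = x := by rw [h.pow]; group
  have hcG : G.map c = G := mem_normalizer_iff_map_conj_eq.mp h.norm
  have hmapn : ∀ T : Subgroup X, G ≤ normalizer (T : Set X) →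
      G ≤ normalizer (T.map c : Set X) := fun T hT =>
    hcG.ge.trans ((map_mono hT).trans (le_normalizer_map c))
  have hmapG : ∀ T : Subgroup X, T ≤ G → T.map c ≤ G := fun T hT => (map_mono hT).trans hcG.le
  set M1 := M.map c with hM1def
  set M2 := M1.map c with hM2def
  have hcyc : M2.map c = M := by
    rw [hM2def, hM1def, map_map, map_map]
    conv_rhs => rw [← map_id M]
    congr 1
    ext x
    exact hc3 x
  have hne1 : M1 ≠ M := fun e => by
    rcases hmin M hMn (mem_normalizer_iff_map_conj_eq.mpr e) hMG with h1 | h1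
    · exact hM1 h1
    · exact hne.2 (le_antisymm hM₀ (h1 ▸ hMle))
  have hd01 : M ⊓ M1 = ⊥ := by
    by_contra hd
    have h1 : M ⊓ M1 = M := hmin' _ inf_le_left
      (fun g hg => H20.le_normalizer_inf hMn (hmapn M hMn) hg) hd
    exact hne1 (eq_of_le_of_card_ge (inf_eq_left.mp h1)
      (card_map_of_injective hcinj).le).symm
  have hd12 : M1 ⊓ M2 = ⊥ := by
    rw [hM2def, hM1def, ← map_inf M (M.map c) c hcinj, ← hM1def, hd01, Subgroup.map_bot]
  have hd20 : M2 ⊓ M = ⊥ := by
    rw [← hcyc]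
    conv_lhs => arg 1; rw [hM2def]
    rw [← map_inf M1 M2 c hcinj, hd12, Subgroup.map_bot]
  have hn1 := hmapn M hMn
  have hn2 := hmapn M1 hn1
  have hG1 := hmapG M hMG
  have hG2 := hmapG M1 hG1
  have k01 : ∀ a ∈ M, ∀ b ∈ M1, Commute a b := fun a ha b hb =>
    commute_of_disjoint_normalized hMG hG1 hMn hn1 hd01 ha hb
  have k12 : ∀ a ∈ M1, ∀ b ∈ M2, Commute a b := fun a ha b hb =>
    commute_of_disjoint_normalized hG1 hG2 hn1 hn2 hd12 ha hb
  have k20 : ∀ a ∈ M2, ∀ b ∈ M, Commute a b := fun a ha b hb =>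
    commute_of_disjoint_normalized hG2 hMG hn2 hMn hd20 ha hb
  let D : M →* X :=
    { toFun := fun a => (a : X) * c a * c (c a)
      map_one' := by simp
      map_mul' := fun a b => by
        have m1 : ∀ x : M, c x ∈ M1 := fun x => mem_map_of_mem c x.2
        have m2 : ∀ x : M, c (c x) ∈ M2 := fun x => mem_map_of_mem c (m1 x)
        simp only [Subgroup.coe_mul, map_mul]
        calc (a : X) * b * (c a * c b) * (c (c a) * c (c b))
            = a * (b * c a) * (c b * c (c a)) * c (c b) := by group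
          _ = a * (c a * b) * (c (c a) * c b) * c (c b) := by
            rw [(k01 b b.2 _ (m1 a)).eq, (k12 _ (m1 b) _ (m2 a)).eq]
          _ = a * c a * (b * c (c a)) * c b * c (c b) := by group
          _ = a * c a * (c (c a) * b) * c b * c (c b) := by rw [(k20 _ (m2 a) b b.2).eq]
          _ = a * c a * c (c a) * (b * c b * c (c b)) := by group }
  have hDfix : ∀ a : M, (D a : X) ∈ G ∧ Commute s (D a) := by
    intro a
    have h1 := mem_map_of_mem c a.2
    have h2 := mem_map_of_mem c h1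
    refine ⟨mul_mem (mul_mem (hMG a.2) (hG1 h1)) (hG2 h2), ?_⟩
    have h3 : c (D a) = D a := by
      show c ((a : X) * c a * c (c a)) = a * c a * c (c a)
      rw [map_mul, map_mul, hc3]
      rw [mul_assoc, (k20 _ h2 a a.2).eq, ← mul_assoc, ← (k01 a a.2 _ h1).eq]
    show s * D a = D a * s
    exact mul_inv_eq_iff_eq_mul.mp h3
  have hcen : ∀ a b : M, ∀ m ∈ M, Commute ((a * b * a⁻¹ * b⁻¹ : M) : X) m := by
    intro a b m hm
    set x := a * b * a⁻¹ * b⁻¹ with hx
    have h1 : D x = 1 := by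
      rw [hx, map_mul, map_mul, map_mul, map_inv, map_inv,
        (h.comm _ (hDfix a).1 _ (hDfix b).1 (hDfix a).2 (hDfix b).2).eq]
      group
    have h2 : (x : X) = (c x * c (c x))⁻¹ := by
      have h1' : (x : X) * c x * c (c x) = 1 := h1
      rw [mul_assoc] at h1'
      exact mul_eq_one_iff_eq_inv.mp h1'
    rw [h2]
    exact (((k01 m hm _ (mem_map_of_mem c x.2)).symm).mul_left
      (k20 _ (mem_map_of_mem c (mem_map_of_mem c x.2)) m hm)).inv_left
  have hMab : ∀ a ∈ M, ∀ b ∈ M, Commute a b := by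
    set T := M ⊓ centralizer (M : Set X) with hT
    have hTn : G ≤ normalizer (T : Set X) :=
      fun g hg => H20.le_normalizer_inf hMn (H20.le_normalizer_centralizer hMn) hg
    by_cases hT1 : T = ⊥
    · intro a ha b hb
      have h1 : ((⟨a, ha⟩ * ⟨b, hb⟩ * ⟨a, ha⟩⁻¹ * ⟨b, hb⟩⁻¹ : M) : X) ∈ T :=
        ⟨SetLike.coe_mem _, mem_centralizer_iff.mpr fun m hm => (hcen _ _ m hm).eq.symm⟩
      rw [hT1, mem_bot] at h1
      change a * b * a⁻¹ * b⁻¹ = 1 at h1
      rw [mul_inv_eq_one, mul_inv_eq_iff_eq_mul] at h1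
      exact h1
    · intro a ha b hb
      have h1 := hmin' T inf_le_left hTn hT1
      exact (mem_centralizer_iff.mp (show b ∈ T by rw [h1]; exact hb).2 a ha)
  have hab1 : ∀ a ∈ M1, ∀ b ∈ M1, Commute a b := by
    rintro _ ⟨a, ha, rfl⟩ _ ⟨b, hb, rfl⟩; exact (hMab a ha b hb).map c
  have hab2 : ∀ a ∈ M2, ∀ b ∈ M2, Commute a b := by
    rintro _ ⟨a, ha, rfl⟩ _ ⟨b, hb, rfl⟩; exact (hab1 a ha b hb).map c
  set N := M ⊔ M1 ⊔ M2 with hN
  have hNn : G ≤ normalizer (N : Set X) := sup_le_normalizer (sup_le_normalizer hMn hn1) hn2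
  have hNs : s ∈ normalizer (N : Set X) := by
    rw [mem_normalizer_iff_map_conj_eq]
    show N.map c = N
    rw [hN, Subgroup.map_sup, Subgroup.map_sup, ← hM1def,
      ← hM2def, hcyc]
    rw [sup_assoc, sup_comm M1 (M2 ⊔ M), sup_comm M2 M, sup_assoc, sup_comm M2 M1, ← sup_assoc]
  rcases hmin N hNn hNs (sup_le (sup_le hMG hG1) hG2) with h1 | h1
  · exact hM1 (le_bot_iff.mp (h1 ▸ (le_sup_left.trans le_sup_left)))
  · refine hna fun a ha b hb => ?_
    have hcent : ∀ {A : Subgroup X}, (∀ x ∈ A, ∀ y ∈ M, Commute x y) →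
        (∀ x ∈ A, ∀ y ∈ M1, Commute x y) → (∀ x ∈ A, ∀ y ∈ M2, Commute x y) →
        N ≤ centralizer (A : Set X) := by
      intro A q0 q1 q2
      refine sup_le (sup_le ?_ ?_) ?_ <;> intro y hy <;> refine mem_centralizer_iff.mpr fun x hx => ?_
      exacts [(q0 x hx y hy).eq, (q1 x hx y hy).eq, (q2 x hx y hy).eq]
    have hall : N ≤ centralizer (N : Set X) := by
      refine le_centralizer_iff.mp (sup_le (sup_le ?_ ?_) ?_)
      · exact le_centralizer_iff.mp (hcent hMab k01 fun x hx y hy => (k20 y hy x hx).symm)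
      · exact le_centralizer_iff.mp
          (hcent (fun x hx y hy => (k01 y hy x hx).symm) hab1 k12)
      · exact le_centralizer_iff.mp
          (hcent k20 (fun x hx y hy => (k12 y hy x hx).symm) hab2)
    rw [h1] at hall
    exact (mem_centralizer_iff.mp (hall hb) a ha)

end Cfsg.Agent.H35.Collins
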