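import Mathlib
import Cfsg.Agent.H19.Basic
import Cfsg.Agent.H19.Cores
import Cfsg.Agent.H20.FixedPoints
import Cfsg.Agent.H20.Basic

/-!
An element `s` with `s ^ 3 = 1` normalising a subgroup `G` of order prime to three, with fixed
points forming an abelian group of odd order: basic properties, subgroups and quotients.
-/

set_option autoImplicit false

namespace Cfsg.Agent.H35.Collins

open Subgroup

variable {X : Type*} [Group X]

/-- `s` acts on `G` coprimely, with order dividing three and abelian fixed points of odd order. -/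
structure Good (s : X) (G : Subgroup X) : Prop where
  pow : s ^ 3 = 1
  norm : s ∈ normalizer (G : Set X)
  three : ¬ 3 ∣ Nat.card G
  comm : ∀ x ∈ G, ∀ y ∈ G, Commute s x → Commute s y → Commute x y
  odd : ∀ x ∈ G, Commute s x → x * x = 1 → x = 1

/-- The fixed points of `s` in `G`. -/
def fix (s : X) (G : Subgroup X) : Subgroup X := G ⊓ centralizer (zpowers s : Set X)

theorem mem_centralizer_zpowers {s x : X} :
    x ∈ centralizer (zpowers s : Set X) ↔ Commute s x := by
  constructor
  · exact fun h => mem_centralizer_iff.mp h s (mem_zpowers s)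
  · intro h
    refine mem_centralizer_iff.mpr fun a ha => ?_
    obtain ⟨n, rfl⟩ := mem_zpowers_iff.mp ha
    exact h.zpow_left n

theorem mem_fix {s x : X} {G : Subgroup X} : x ∈ fix s G ↔ x ∈ G ∧ Commute s x :=
  mem_inf.trans (Iff.and Iff.rfl mem_centralizer_zpowers)

variable [Finite X] {s : X} {G H : Subgroup X}

theorem Good.zle (h : Good s G) : zpowers s ≤ normalizer (G : Set X) := zpowers_le.mpr h.norm

theorem Good.card_zpowers_dvd (h : Good s G) : Nat.card (zpowers s) ∣ 3 := by
  rw [Nat.card_zpowers]; exact orderOf_dvd_of_pow_eq_one h.pow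

theorem Good.cop (h : Good s G) (hH : H ≤ G) : (Nat.card (zpowers s)).Coprime (Nat.card H) :=
  ((Nat.prime_three.coprime_iff_not_dvd.mpr h.three).coprime_dvd_left h.card_zpowers_dvd
    ).coprime_dvd_right (card_dvd_of_le hH)

omit [Finite X] in
theorem solv_zpowers (s : X) : Group.IsSolvable (zpowers s) :=
  H20.isSolvable_of_isMulCommutative (zpowers s)

theorem Good.mono (h : Good s G) (hH : H ≤ G) (hn : s ∈ normalizer (H : Set X)) : Good s H :=
  ⟨h.pow, hn, fun hd => h.three (hd.trans (card_dvd_of_le hH)),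
    fun x hx y hy => h.comm x (hH hx) y (hH hy), fun x hx => h.odd x (hH hx)⟩

/-- Fixed points in a quotient lift. -/
theorem Good.lift (h : Good s G) {N : Subgroup X} (hN : N ≤ G) (hsN : s ∈ normalizer (N : Set X))
    {k : X} (hk : k ∈ G) (hfix : k⁻¹ * (s * k * s⁻¹) ∈ N) :
    ∃ c ∈ G, Commute s c ∧ k⁻¹ * c ∈ N := by
  have hsolv : Group.IsSolvable (zpowers s) ∨ Group.IsSolvable G := Or.inl (solv_zpowers s)
  have hall : ∀ a ∈ zpowers s, k⁻¹ * (a * k * a⁻¹) ∈ N := by
    intro a ha
    obtain ⟨n, rfl⟩ := (isOfFinOrder_of_finite s).mem_powers_iff_mem_zpowers.mpr ha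
    induction n with
    | zero => simpa using one_mem N
    | succ n ih =>
      have h1 : k⁻¹ * (s ^ (n + 1) * k * (s ^ (n + 1))⁻¹) =
          (k⁻¹ * (s * k * s⁻¹)) * (s * (k⁻¹ * (s ^ n * k * (s ^ n)⁻¹)) * s⁻¹) := by
        rw [pow_succ']; group
      rw [h1]
      exact mul_mem hfix ((mem_normalizer_iff.mp hsN _).mp (ih (mem_zpowers_iff.mpr ⟨n, by simp⟩)))
  obtain ⟨c, hc, hkc⟩ := H20.exists_fixed_mem_coset (h.cop le_rfl) hsolv hN
    (zpowers_le.mpr hsN) hk hall
  exact ⟨c, hc.1, mem_centralizer_zpowers.mp hc.2, hkc⟩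

/-- The hypothesis passes to quotients. -/
theorem Good.quotient (h : Good s G) (N : Subgroup X) [N.Normal] (hN : N ≤ G) :
    Good (QuotientGroup.mk' N s) (G.map (QuotientGroup.mk' N)) := by
  set f := QuotientGroup.mk' N with hf
  have lift : ∀ x ∈ G.map f, Commute (f s) x → ∃ c ∈ G, Commute s c ∧ f c = x := by
    rintro _ ⟨k, hk, rfl⟩ hcomm
    have h1 : f (k⁻¹ * (s * k * s⁻¹)) = 1 := by
      simp only [map_mul, map_inv, hcomm.eq]; group
    obtain ⟨c, hc, hsc, hkc⟩ := h.lift hN (by rw [normalizer_eq_top]; exact mem_top s) hk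
      ((QuotientGroup.eq_one_iff _).mp h1)
    refine ⟨c, hc, hsc, ?_⟩
    have h2 : f (k⁻¹ * c) = 1 := (QuotientGroup.eq_one_iff _).mpr hkc
    rw [map_mul, map_inv] at h2
    exact (inv_mul_eq_one.mp h2).symm
  refine ⟨by rw [← map_pow, h.pow, map_one], ?_,
    fun hd => h.three (hd.trans (card_map_dvd G f)), ?_, ?_⟩
  · exact le_normalizer_map f (mem_map_of_mem f h.norm)
  · intro x hx y hy hsx hsy
    obtain ⟨c, hc, hsc, rfl⟩ := lift x hx hsx
    obtain ⟨d, hd, hsd, rfl⟩ := lift y hy hsy
    exact (h.comm c hc d hd hsc hsd).map f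
  · intro x hx hsx hxx
    obtain ⟨c, hc, hsc, rfl⟩ := lift x hx hsx
    -- the fixed points form an abelian group of odd order
    have hodd : Odd (orderOf c) := by
      by_contra hev
      rw [Nat.not_odd_iff_even] at hev
      obtain ⟨j, hj⟩ := hev
      have hpos : 0 < orderOf c := orderOf_pos c
      have h1 : c ^ j * c ^ j = 1 := by rw [← pow_add, ← hj, pow_orderOf_eq_one]
      have h2 := h.odd _ (pow_mem hc j) (hsc.pow_right j) h1
      exact absurd (Nat.le_of_dvd (by omega) (orderOf_dvd_of_pow_eq_one h2)) (by omega)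
    obtain ⟨j, hj⟩ := hodd
    have : f c ^ orderOf c = 1 := by rw [← map_pow, pow_orderOf_eq_one, map_one]
    rwa [hj, pow_succ, pow_mul, pow_two, hxx, one_pow, one_mul] at this

/-- A 2-subgroup has no fixed points. -/
theorem Good.inf_two (h : Good s G) {P : Subgroup X} (hPG : P ≤ G) (hP : IsPGroup 2 P) :
    P ⊓ centralizer (zpowers s : Set X) = ⊥ := by
  rw [eq_bot_iff]
  rintro x ⟨hxP, hxs⟩
  have hc := mem_centralizer_zpowers.mp hxs
  obtain ⟨n, hn⟩ := hP ⟨x, hxP⟩
  have hn' : x ^ 2 ^ n = 1 := by simpa using congrArg Subtype.val hn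
  clear hn
  induction n with
  | zero => simpa using hn'
  | succ n ih =>
    refine ih (h.odd _ (hPG (pow_mem hxP _)) (hc.pow_right _) ?_)
    rw [← pow_add, ← two_mul, ← pow_succ']; exact hn'

/-- If `s` is central on `G`, then `G` is abelian of odd order. -/
theorem Good.trivial_action (h : Good s G) (hc : ∀ x ∈ G, Commute s x) :
    IsMulCommutative G ∧ Odd (Nat.card G) := by
  refine ⟨⟨⟨fun a b => Subtype.ext (h.comm a a.2 b b.2 (hc a a.2) (hc b b.2)).eq⟩⟩, ?_⟩
  by_contra hev
  haveI := Fact.mk Nat.prime_two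
  rw [Nat.not_odd_iff_even, even_iff_two_dvd] at hev
  obtain ⟨x, hx⟩ := exists_prime_orderOf_dvd_card' 2 hev
  have h2 : (x : X) * x = 1 := by
    rw [← pow_two]; simpa [hx] using congrArg Subtype.val (pow_orderOf_eq_one x)
  have h1 : (x : X) = 1 := h.odd x x.2 (hc x x.2) h2
  rw [← Subgroup.orderOf_coe, h1, orderOf_one] at hx
  omega

end Cfsg.Agent.H35.Collins
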