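import Cfsg.Agent.H35.Collins.Setting
import Cfsg.Agent.H20.HallHigmanHall
import Cfsg.Agent.H20.Sylow
import Cfsg.Agent.H20.Hall

/-!
The solvable case: `G = L C_G(s)` with `L` an extension of a group of odd order by a 2-group,
normal and of odd index.
-/

set_option autoImplicit false

namespace Cfsg.Agent.H35.Collins

open Subgroup
open scoped commutatorElement

universe u

/-- `L` is odd-by-2, of odd index, normal in `G`, and covers `G` with the fixed points of `s`. -/
structure Split {X : Type*} [Group X] (s : X) (G O L : Subgroup X) : Prop where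
  oL : O ≤ L
  lG : L ≤ G
  normO : G ≤ normalizer (O : Set X)
  normL : G ≤ normalizer (L : Set X)
  odd : Odd (Nat.card O)
  two : ∃ k : ℕ, O.relIndex L = 2 ^ k
  index : Odd (L.relIndex G)
  sO : s ∈ normalizer (O : Set X)
  sL : s ∈ normalizer (L : Set X)
  cover : ∀ g ∈ G, ∃ l ∈ L, ∃ c ∈ G, Commute s c ∧ g = l * c

variable {X : Type u} [Group X] [Finite X] {s : X} {G : Subgroup X}

/-- A 2-subgroup lies in every normal subgroup of odd index. -/
theorem two_le {L G P : Subgroup X} (hLG : L ≤ G) (hn : G ≤ normalizer (L : Set X))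
    (hodd : Odd (L.relIndex G)) (hPG : P ≤ G) (hP : IsPGroup 2 P) : P ≤ L := by
  intro x hx
  haveI : (L.subgroupOf G).Normal := normal_subgroupOf_of_le_normalizer hn
  have h1 : (QuotientGroup.mk ⟨x, hPG hx⟩ : G ⧸ L.subgroupOf G) ^ (L.relIndex G) = 1 :=
    pow_card_eq_one'
  obtain ⟨n, hn'⟩ := hP ⟨x, hx⟩
  have h2 : (QuotientGroup.mk ⟨x, hPG hx⟩ : G ⧸ L.subgroupOf G) ^ (2 ^ n) = 1 := by
    rw [← QuotientGroup.mk_pow]
    have e : (⟨x, hPG hx⟩ : G) ^ 2 ^ n = 1 :=
      Subtype.ext (by simpa using congrArg Subtype.val hn')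
    rw [e]; rfl
  have hcop : (L.relIndex G).Coprime (2 ^ n) :=
    (Nat.coprime_two_right.mpr hodd).pow_right n
  have h3 := pow_gcd_eq_one.mpr ⟨h1, h2⟩
  rw [hcop.gcd_eq_one, pow_one, QuotientGroup.eq_one_iff] at h3
  exact mem_subgroupOf.mp h3

/-- `L = O P` for every Sylow 2-subgroup `P`. -/
theorem Split.sup_eq {O L P : Subgroup X} (h : Split s G O L) (hPG : P ≤ G) (hP : IsPGroup 2 P)
    (hPi : Odd (P.relIndex G)) : O ⊔ P = L := by
  have hPL := two_le h.lG h.normL h.index hPG hP
  have hle : O ⊔ P ≤ L := sup_le h.oL hPL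
  refine le_antisymm hle (relIndex_eq_one.mp ?_)
  obtain ⟨k, hk⟩ := h.two
  have d1 : (O ⊔ P).relIndex L ∣ O.relIndex L :=
    ⟨O.relIndex (O ⊔ P), by rw [mul_comm, relIndex_mul_relIndex O (O ⊔ P) L le_sup_left hle]⟩
  have d2 : (O ⊔ P).relIndex L ∣ P.relIndex G :=
    Nat.dvd_trans (⟨P.relIndex (O ⊔ P), by
      rw [mul_comm, relIndex_mul_relIndex P (O ⊔ P) L le_sup_right hle]⟩ :
      (O ⊔ P).relIndex L ∣ P.relIndex L)
      ⟨L.relIndex G, by rw [relIndex_mul_relIndex P L G hPL h.lG]⟩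
  rw [hk] at d1
  exact Nat.eq_one_of_dvd_coprimes ((Nat.coprime_two_left.mpr hPi).pow_left k) d1 d2

/-- A Sylow 2-subgroup normalised by `s`. -/
theorem Good.exists_sylow (h : Good s G) : ∃ P : Subgroup X, P ≤ G ∧ s ∈ normalizer (P : Set X) ∧
    IsPGroup 2 P ∧ Odd (P.relIndex G) := by
  haveI := Fact.mk Nat.prime_two
  obtain ⟨S, hS⟩ := H20.exists_invariant_sylow h.zle (h.cop le_rfl) (Or.inl (solv_zpowers s)) 2
  refine ⟨(S : Subgroup G).map G.subtype, map_subtype_le _, zpowers_le.mp hS,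
    S.2.map _, ?_⟩
  have e : ((S : Subgroup G).map G.subtype).relIndex G = (S : Subgroup G).index := by
    rw [relIndex, subgroupOf, comap_map_eq_self_of_injective G.subtype_injective]
  rw [e, ← Nat.not_even_iff_odd, even_iff_two_dvd]
  exact S.not_dvd_index

/-- The image of a characteristic subgroup of a normal subgroup is normal. -/
theorem normal_map_characteristic {N : Subgroup X} (hN : N.Normal) (C : Subgroup N)
    [C.Characteristic] : (C.map N.subtype).Normal := by
  rw [← normalizer_eq_top_iff, eq_top_iff]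
  exact H20.le_normalizer_map_characteristic (by rw [normalizer_eq_top]) C

/-- A minimal normal subgroup of `X` inside a solvable `G` is elementary abelian. -/
theorem exists_elementary_normal (hn : G.Normal) (hsol : Group.IsSolvable G) (hne : G ≠ ⊥) :
    ∃ (q : ℕ) (N : Subgroup X), q.Prime ∧ N.Normal ∧ N ≤ G ∧ N ≠ ⊥ ∧
      Cfsg.IsElementaryAbelian q N := by
  obtain ⟨N, ⟨hNn, hNG, hN1⟩, hmin⟩ := (Set.toFinite {N : Subgroup X | N.Normal ∧ N ≤ G ∧ N ≠ ⊥}
    ).exists_minimal ⟨G, hn, le_rfl, hne⟩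
  have hmin' : ∀ M : Subgroup X, M.Normal → M ≤ N → M ≠ ⊥ → M = N := fun M h1 h2 h3 =>
    le_antisymm h2 (hmin ⟨h1, h2.trans hNG, h3⟩ h2)
  haveI := hNn
  haveI hsolN : Group.IsSolvable N := H20.isSolvable_of_le hNG hsol
  have hab : ⁅N, N⁆ = ⊥ := by
    by_contra hc
    have heq : ⁅N, N⁆ = N := hmin' _ inferInstance (commutator_le_right N N) hc
    haveI : Nontrivial N := N.nontrivial_iff_ne_bot.mpr hN1
    have := Group.IsSolvable.commutator_lt_top_of_nontrivial N
    refine this.ne (map_injective N.subtype_injective ?_)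
    rw [map_subtype_commutator, ← MonoidHom.range_eq_map, range_subtype, heq]
  have hcomm : ∀ x ∈ N, ∀ y ∈ N, x * y = y * x := by
    intro x hx y hy
    exact (commutatorElement_eq_one_iff_mul_comm).mp
      (mem_bot.mp (hab ▸ commutator_mem_commutator hx hy))
  obtain ⟨q, hq, hqN⟩ := Nat.exists_prime_and_dvd
    (show Nat.card N ≠ 1 from fun h => hN1 (card_eq_one.mp h))
  let M : Subgroup X :=
    { carrier := {x | x ∈ N ∧ x ^ q = 1}
      mul_mem' := fun {a b} ha hb => ⟨mul_mem ha.1 hb.1, by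
        rw [(show Commute a b from hcomm a ha.1 b hb.1).mul_pow, ha.2, hb.2, one_mul]⟩
      one_mem' := ⟨one_mem N, one_pow q⟩
      inv_mem' := fun {a} ha => ⟨inv_mem ha.1, by rw [inv_pow, ha.2, inv_one]⟩ }
  have hMn : M.Normal := ⟨fun x hx g => ⟨hNn.conj_mem x hx.1 g, by rw [conj_pow, hx.2]; group⟩⟩
  have hM1 : M ≠ ⊥ := by
    haveI := Fact.mk hq
    obtain ⟨x, hx⟩ := exists_prime_orderOf_dvd_card' q hqN
    intro hbot
    have h2 : (x : X) ∈ M := ⟨x.2, by
      simpa [hx] using congrArg Subtype.val (pow_orderOf_eq_one x)⟩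
    rw [hbot, mem_bot] at h2
    rw [← Subgroup.orderOf_coe, h2, orderOf_one] at hx
    exact hq.ne_one hx.symm
  have hMN : M = N := hmin' M hMn (fun x hx => hx.1) hM1
  refine ⟨q, N, hq, hNn, hNG, hN1, ⟨⟨fun a b => Subtype.ext (hcomm a a.2 b b.2)⟩⟩, ?_⟩
  intro x hx
  rw [← hMN] at hx
  exact hx.2

/-- **The solvable case.** -/
theorem exists_split_aux : ∀ (n : ℕ) {X : Type u} [Group X] [Finite X] (s : X) (G : Subgroup X),
    G ⊔ zpowers s = ⊤ → Good s G → Group.IsSolvable G → Nat.card G = n → ∃ O L, Split s G O L := by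
  intro n
  induction n using Nat.strong_induction_on with
  | _ n ih =>
  intro X _ _ s G hgen h hsol hcard
  have hnormal : ∀ T : Subgroup X, G ≤ normalizer (T : Set X) → s ∈ normalizer (T : Set X) →
      T.Normal := fun T h1 h2 =>
    normalizer_eq_top_iff.mp (top_le_iff.mp (hgen ▸ sup_le h1 (zpowers_le.mpr h2)))
  have hGn : G.Normal := hnormal G le_normalizer h.norm
  haveI := Fact.mk Nat.prime_two
  -- quotient by a nontrivial normal subgroup
  have quot : ∀ N : Subgroup X, ∀ (_ : N.Normal), N ≤ G → N ≠ ⊥ →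
      ∃ O L : Subgroup (X ⧸ N), Split (QuotientGroup.mk' N s) (G.map (QuotientGroup.mk' N)) O L := by
    intro N hN hNG hN1
    haveI := hsol
    refine ih _ ?_ _ _ ?_ (h.quotient N hNG)
      (solvable_of_surjective ((QuotientGroup.mk' N).subgroupMap_surjective G)) rfl
    · rw [← hcard]
      have e1 := H19.card_eq_card_map_mul N G
      rw [inf_eq_right.mpr hNG] at e1
      have h2 : 1 < Nat.card N := N.one_lt_card_iff_ne_bot.mpr hN1
      have h3 : 0 < Nat.card (G.map (QuotientGroup.mk' N)) := Nat.card_pos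
      rw [e1]; exact lt_mul_of_one_lt_right h3 h2
    · rw [← MonoidHom.map_zpowers, ← Subgroup.map_sup, hgen,
        map_top_of_surjective _ (QuotientGroup.mk'_surjective N)]
  -- pulling a decomposition back
  have back : ∀ (N : Subgroup X) (_ : N.Normal), N ≤ G → ∀ (O L : Subgroup (X ⧸ N)),
      Split (QuotientGroup.mk' N s) (G.map (QuotientGroup.mk' N)) O L →
      ∀ g ∈ G, ∃ l ∈ L.comap (QuotientGroup.mk' N), ∃ c ∈ G, Commute s c ∧ g = l * c := by
    intro N hN hNG O L hS g hg
    obtain ⟨l, hl, cb, hcb, hsc, e⟩ := hS.cover _ (mem_map_of_mem _ hg)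
    obtain ⟨k, hk, rfl⟩ := hcb
    have h1 : k⁻¹ * (s * k * s⁻¹) ∈ N := by
      rw [← QuotientGroup.eq_one_iff]
      have : QuotientGroup.mk' N (k⁻¹ * (s * k * s⁻¹)) = 1 := by
        simp only [map_mul, map_inv, hsc.eq]; group
      exact this
    obtain ⟨c, hc, hsc', hkc⟩ := h.lift hNG (by rw [normalizer_eq_top]; exact mem_top s) hk h1
    have e2 : QuotientGroup.mk' N c = QuotientGroup.mk' N k :=
      ((QuotientGroup.eq).mpr hkc).symm
    refine ⟨g * c⁻¹, ?_, c, hc, hsc', by group⟩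
    rw [mem_comap, map_mul, map_inv, e2, e, mul_assoc, mul_inv_cancel, mul_one]
    exact hl
  have card_comap : ∀ (N : Subgroup X) (_ : N.Normal) (L : Subgroup (X ⧸ N)),
      Nat.card (L.comap (QuotientGroup.mk' N)) = Nat.card L * Nat.card N := by
    intro N hN L
    have e1 := H19.card_eq_card_map_mul N (L.comap (QuotientGroup.mk' N))
    rw [map_comap_eq_self_of_surjective (QuotientGroup.mk'_surjective N),
      inf_eq_right.mpr ((QuotientGroup.ker_mk' N).ge.trans (comap_mono bot_le))] at e1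
    exact e1
  by_cases hG1 : G = ⊥
  · subst hG1
    exact ⟨⊥, ⊥, le_rfl, le_rfl, bot_le, bot_le, by simp, ⟨0, by simp⟩, by simp,
      by rw [normalizer_eq_top]; exact mem_top s, by rw [normalizer_eq_top]; exact mem_top s,
      fun g hg => ⟨1, one_mem _, g, hg, by rw [mem_bot.mp hg]; exact Commute.one_right s, by simp⟩⟩
  by_cases hoddN : ∃ N : Subgroup X, N.Normal ∧ N ≤ G ∧ N ≠ ⊥ ∧ Odd (Nat.card N)
  · obtain ⟨N, hNn, hNG, hN1, hNodd⟩ := hoddN
    haveI := hNn
    obtain ⟨O, L, hS⟩ := quot N hNn hNG hN1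
    set f := QuotientGroup.mk' N with hf
    have hfs : Function.Surjective f := QuotientGroup.mk'_surjective N
    have hker : f.ker = N := QuotientGroup.ker_mk' N
    have hcm : (G.map f).comap f = G := by
      rw [comap_map_eq, hker, sup_eq_left.mpr hNG]
    refine ⟨O.comap f, L.comap f, ⟨comap_mono hS.oL, ?_, ?_, ?_, ?_, ?_, ?_,
      le_normalizer_comap f hS.sO, le_normalizer_comap f hS.sL, back N hNn hNG O L hS⟩⟩
    · exact (comap_mono hS.lG).trans hcm.le
    · exact hcm.ge.trans ((comap_mono hS.normO).trans (le_normalizer_comap f))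
    · exact hcm.ge.trans ((comap_mono hS.normL).trans (le_normalizer_comap f))
    · rw [card_comap N hNn O]; exact hS.odd.mul hNodd
    · rw [relIndex_comap, map_comap_eq_self_of_surjective hfs]; exact hS.two
    · nth_rewrite 1 [← hcm]
      rw [relIndex_comap, map_comap_eq_self_of_surjective hfs]; exact hS.index
  -- no nontrivial normal subgroup of odd order
  obtain ⟨q, N, hq, hNn, hNG, hN1, hNel⟩ := exists_elementary_normal hGn hsol hG1
  haveI := hNn
  haveI := Fact.mk hq
  have hNp : IsPGroup q N := fun x => ⟨1, Subtype.ext (by simpa using hNel.2 x x.2)⟩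
  have hq2 : q = 2 := by
    by_contra hne
    obtain ⟨k, hk⟩ := IsPGroup.iff_card.mp hNp
    exact hoddN ⟨N, hNn, hNG, hN1, hk ▸ (hq.odd_of_ne_two hne).pow⟩
  subst hq2
  have hs1 : s ≠ 1 := by
    intro hs
    exact hoddN ⟨G, hGn, le_rfl, hG1,
      (h.trivial_action (fun x _ => hs ▸ Commute.one_left x)).2⟩
  have hR : Nat.card (zpowers s) = 3 := by
    rw [Nat.card_zpowers]
    rcases (Nat.dvd_prime Nat.prime_three).mp (orderOf_dvd_of_pow_eq_one h.pow) with h1 | h1
    · exact absurd (orderOf_eq_one_iff.mp h1) hs1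
    · exact h1
  obtain ⟨Ob, Lb, hS⟩ := quot N hNn hNG hN1
  set f := QuotientGroup.mk' N with hf
  have hfs : Function.Surjective f := QuotientGroup.mk'_surjective N
  have hker : f.ker = N := QuotientGroup.ker_mk' N
  have hcm : (G.map f).comap f = G := by rw [comap_map_eq, hker, sup_eq_left.mpr hNG]
  set O1 := Ob.comap f with hO1
  set L1 := Lb.comap f with hL1
  have hO1G : O1 ≤ G := (comap_mono (hS.oL.trans hS.lG)).trans hcm.le
  have hL1G : L1 ≤ G := (comap_mono hS.lG).trans hcm.le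
  have hNO1 : N ≤ O1 := hker ▸ comap_mono bot_le
  have hGO1 : G ≤ normalizer (O1 : Set X) :=
    hcm.ge.trans ((comap_mono hS.normO).trans (le_normalizer_comap f))
  have hGL1 : G ≤ normalizer (L1 : Set X) :=
    hcm.ge.trans ((comap_mono hS.normL).trans (le_normalizer_comap f))
  have hNsol : Group.IsSolvable O1 := H20.isSolvable_of_le hO1G hsol
  -- a complement of `N` in `O1` normalised by `s`
  have hsO : s ∈ normalizer (O1 : Set X) := le_normalizer_comap f hS.sO
  obtain ⟨j, hj⟩ := IsPGroup.iff_card.mp hNp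
  obtain ⟨K0, hK0O, hK0c, -, hsK0⟩ := H20.exists_invariant_hall_ge (A := zpowers s) (K := O1)
    (U := ⊥) (zpowers_le.mpr hsO) (h.cop hO1G) hNsol (m := Nat.card Ob) (n := Nat.card N)
    (card_comap N hNn Ob) (hj ▸ (Nat.coprime_two_right.mpr hS.odd).pow_right j) bot_le
    (by rw [normalizer_eq_top]; exact le_top) (by simp)
  have hK0odd : Odd (Nat.card K0) := hK0c ▸ hS.odd
  have hK0G : K0 ≤ G := hK0O.trans hO1G
  have hNK0 : N ⊓ K0 = ⊥ :=
    inf_eq_bot_of_coprime (hj ▸ (Nat.coprime_two_left.mpr hK0odd).pow_left j)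
  have hK0map : K0.map f = Ob := by
    refine eq_of_le_of_card_ge ((map_mono hK0O).trans (map_comap_le f Ob)) ?_
    have e := H19.card_eq_card_map_mul N K0
    rw [inf_comm, hNK0, card_bot, mul_one] at e
    rw [← hK0c, e]
  have hRK : ⁅zpowers s, K0⁆ ≤ centralizer (N : Set X) :=
    H20.HH.commutator_le_centralizer_of_no_fixed Nat.prime_two Nat.prime_three (by decide) hR
      (fun hd => h.three (hd.trans (card_dvd_of_le hK0G)))
      (by rw [← Nat.prime_two.coprime_iff_not_dvd, Nat.coprime_two_left]; exact hK0odd) hK0odd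
      hsK0 hNel (by rw [normalizer_eq_top]; exact le_top) (by rw [normalizer_eq_top]; exact le_top)
      (h.inf_two hNG hNp)
  -- the part of `K0` centralising `N` is trivial
  have hK0cent : K0 ⊓ centralizer (N : Set X) = ⊥ := by
    set D := O1 ⊓ centralizer (N : Set X) with hD
    have hND : N ≤ D := le_inf hNO1 fun x hx => mem_centralizer_iff.mpr fun y hy => by
      have := congrArg Subtype.val (hNel.1.1.comm ⟨y, hy⟩ ⟨x, hx⟩)
      simpa using this
    set T := K0 ⊓ centralizer (N : Set X) with hT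
    have hTD : T ≤ D := le_inf (inf_le_left.trans hK0O) inf_le_right
    have hDT : D ≤ N ⊔ T := by
      intro x hx
      obtain ⟨k, hk, hkx⟩ : ∃ k ∈ K0, f k = f x := by
        have : f x ∈ K0.map f := hK0map ▸ hx.1
        exact this
      have h1 : x * k⁻¹ ∈ N := by
        rw [← QuotientGroup.eq_one_iff]
        have : f (x * k⁻¹) = 1 := by rw [map_mul, map_inv, hkx, mul_inv_cancel]
        exact this
      have h2 : k ∈ centralizer (N : Set X) := by
        rw [show k = (x * k⁻¹)⁻¹ * x by group]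
        exact mul_mem (inv_mem (hND h1).2) hx.2
      rw [show x = (x * k⁻¹) * k by group]
      exact mul_mem_sup h1 ⟨hk, h2⟩
    -- `T` is normalised by `D`, hence is the odd core of `D`, normal in `G`
    have hDn : G ≤ normalizer (D : Set X) :=
      H20.le_normalizer_inf hGO1 (H20.le_normalizer_centralizer (by rw [normalizer_eq_top]; exact le_top))
    have hsD : s ∈ normalizer (D : Set X) :=
      zpowers_le.mp (H20.le_normalizer_inf (zpowers_le.mpr hsO)
        (H20.le_normalizer_centralizer (by rw [normalizer_eq_top]; exact le_top)))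
    have hTn : D ≤ normalizer (T : Set X) := hDT.trans (sup_le
      (H20.le_normalizer_of_le_centralizer fun x hx =>
        mem_centralizer_iff.mpr fun t ht => (mem_centralizer_iff.mp ht.2 x hx).symm) le_normalizer)
    haveI : (T.subgroupOf D).Normal := normal_subgroupOf_of_le_normalizer hTn
    have hTpc : T.subgroupOf D ≤ Cfsg.pPrimeCore 2 D := H19.le_pPrimeCore inferInstance (by
      rw [Nat.card_congr (subgroupOfEquivOfLe hTD).toEquiv]
      exact Nat.coprime_two_right.mpr (hK0odd.of_dvd_nat (card_dvd_of_le inf_le_left)))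
    set T' := (Cfsg.pPrimeCore 2 D).map D.subtype with hT'
    have hTT' : T ≤ T' := fun x hx => ⟨⟨x, hTD hx⟩, hTpc (mem_subgroupOf.mpr hx), rfl⟩
    haveI := H19.pPrimeCore_characteristic 2 D
    have hGT' : G ≤ normalizer (T' : Set X) := H20.le_normalizer_map_characteristic hDn _
    have hsT' : zpowers s ≤ normalizer (T' : Set X) :=
      H20.le_normalizer_map_characteristic (zpowers_le.mpr hsD) _
    -- `T'` need only be normal in the group generated by `G` and `s`
    have hT'G : T' ≤ G := (map_subtype_le _).trans (inf_le_left.trans hO1G)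
    have hT'odd : Odd (Nat.card T') := by
      rw [hT', card_map_of_injective D.subtype_injective]
      exact Nat.coprime_two_right.mp (H19.pPrimeCore_coprime 2)
    have hT'n : T'.Normal := hnormal T' hGT' (zpowers_le.mp hsT')
    by_contra hne
    exact hoddN ⟨T', hT'n, hT'G, fun hb => hne (le_bot_iff.mp (hb ▸ hTT')), hT'odd⟩
  -- so `s` centralises `K0`
  have hsfix : ∀ k ∈ K0, Commute s k := by
    intro k hk
    have h1 : ⁅zpowers s, K0⁆ ≤ K0 ⊓ centralizer (N : Set X) :=
      le_inf (by rw [commutator_comm]; exact H20.commutator_le_of_le_normalizer hsK0) hRK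
    rw [hK0cent] at h1
    exact (commutatorElement_eq_one_iff_mul_comm).mp
      (mem_bot.mp (h1 (commutator_mem_commutator (mem_zpowers s) hk)))
  obtain ⟨P, hPG, hsP, hP2, hPi⟩ := h.exists_sylow
  have hPL1 : P ≤ L1 := two_le hL1G hGL1 (by
    nth_rewrite 1 [← hcm]
    rw [hL1, relIndex_comap, map_comap_eq_self_of_surjective hfs]; exact hS.index) hPG hP2
  have hidxN : ∀ Q : Subgroup X, P ≤ Q → Q ≤ G → Odd (P.relIndex Q) := fun Q h1 h2 =>
    hPi.of_dvd_nat ⟨Q.relIndex G, by rw [relIndex_mul_relIndex P Q G h1 h2]⟩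
  have hNP : N ≤ P := by
    have hle : P ≤ P ⊔ N := le_sup_left
    have h1 : IsPGroup 2 (P ⊔ N : Subgroup X) := hP2.to_sup_of_normal_right hNp
    have h2 := hidxN _ hle (sup_le hPG hNG)
    obtain ⟨k, hk⟩ := IsPGroup.iff_card.mp h1
    have h3 : P.relIndex (P ⊔ N) = 1 := by
      refine Nat.eq_one_of_dvd_coprimes ((Nat.coprime_two_left.mpr h2).pow_left k)
        (hk ▸ ?_) dvd_rfl
      exact relIndex_dvd_card _ _
    exact le_sup_right.trans (relIndex_eq_one.mp h3)
  -- modulo `N`, `P` centralises `Ob`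
  have hPb : ∀ p ∈ P, ∀ k ∈ K0, k * p * k⁻¹ ∈ P := by
    intro p hp k hk
    have hgood := h.quotient N hNG
    set Pb := P.map f with hPb'
    have hPbG : Pb ≤ G.map f := map_mono hPG
    have hsPb : zpowers (f s) ≤ normalizer (Pb : Set (X ⧸ N)) :=
      zpowers_le.mpr (le_normalizer_map f (mem_map_of_mem f hsP))
    have hPPb : ⁅Pb, zpowers (f s)⁆ = Pb := by
      have e := H20.commutator_sup_centralizer hsPb (hgood.cop hPbG) (Or.inl (solv_zpowers _))
      rwa [hgood.inf_two hPbG (hP2.map f), sup_bot_eq] at e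
    have hObP : ⁅Ob, Pb⁆ ≤ Ob := by
      exact H20.commutator_le_of_le_normalizer (hPbG.trans hS.normO)
    have hObs : zpowers (f s) ≤ centralizer (Ob : Set (X ⧸ N)) := by
      refine zpowers_le.mpr (mem_centralizer_iff.mpr ?_)
      rw [← hK0map]
      rintro _ ⟨y, hy, rfl⟩
      exact ((hsfix y hy).map f).symm
    have h0 : ⁅zpowers (f s), Ob⁆ = ⊥ := commutator_eq_bot_iff_le_centralizer.mpr hObs
    have h1 : ⁅⁅zpowers (f s), Ob⁆, Pb⁆ = ⊥ := by rw [h0, commutator_bot_left]
    have h2 : ⁅⁅Ob, Pb⁆, zpowers (f s)⁆ = ⊥ := by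
      refine le_bot_iff.mp ((commutator_mono hObP le_rfl).trans ?_)
      rw [commutator_comm, h0]
    have h3 := commutator_commutator_eq_bot_of_rotate h1 h2
    rw [hPPb] at h3
    have h4 : f k * f p = f p * f k := (commutatorElement_eq_one_iff_mul_comm).mp (mem_bot.mp
      (h3 ▸ (commutator_comm Pb Ob ▸ commutator_mem_commutator (hK0map ▸ mem_map_of_mem f hk)
        (mem_map_of_mem f hp))))
    have h5 : k * p * k⁻¹ * p⁻¹ ∈ N := by
      rw [← QuotientGroup.eq_one_iff]
      have : f (k * p * k⁻¹ * p⁻¹) = 1 := by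
        simp only [map_mul, map_inv, h4]; group
      exact this
    rw [show k * p * k⁻¹ = (k * p * k⁻¹ * p⁻¹) * p by group]
    exact mul_mem (hNP h5) hp
  have hK0P : K0 ≤ normalizer (P : Set X) :=
    le_normalizer_iff.mpr fun k hk p hp => hPb p hp k hk
  have hLsup : L1 = P ⊔ K0 := by
    have e : Ob ⊔ P.map f = Lb := hS.sup_eq (map_mono hPG) (hP2.map f)
      (by rwa [relIndex_map_map, hker, sup_eq_left.mpr hNP, sup_eq_left.mpr hNG])
    rw [← hK0map, ← Subgroup.map_sup, sup_comm] at e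
    rw [hL1, ← e, comap_map_eq, hker, sup_eq_left.mpr (hNP.trans le_sup_left)]
  have hL1P : L1 ≤ normalizer (P : Set X) := hLsup ▸ sup_le le_normalizer hK0P
  have hGP : G ≤ normalizer (P : Set X) := by
    refine le_normalizer_iff.mpr fun g hg p hp => ?_
    have h1 : g * p * g⁻¹ ∈ P.map (MulAut.conj g).toMonoidHom := ⟨p, hp, rfl⟩
    refine two_le hPL1 hL1P (hidxN L1 hPL1 hL1G) ?_ (hP2.map _) h1
    rintro _ ⟨x, hx, rfl⟩
    exact (mem_normalizer_iff.mp (hGL1 hg) x).mp (hPL1 hx)
  refine ⟨⊥, P, ⟨bot_le, hPG, by rw [normalizer_eq_top]; exact le_top, hGP, by simp, ?_, hPi,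
    by rw [normalizer_eq_top]; exact mem_top s, hsP, fun g hg => ?_⟩⟩
  · rw [relIndex_bot_left]; exact IsPGroup.iff_card.mp hP2
  · obtain ⟨l, hl, c, hc, hsc, rfl⟩ := back N hNn hNG Ob Lb hS g hg
    have hl' : l ∈ P ⊔ K0 := hLsup ▸ hl
    obtain ⟨p, hp, k, hk, rfl⟩ : ∃ p ∈ P, ∃ k ∈ K0, p * k = l := by
      have := hl'
      rw [← SetLike.mem_coe, coe_mul_of_right_le_normalizer_left P K0 hK0P] at this
      exact this
    exact ⟨p, hp, k * c, mul_mem (hK0G hk) hc, (hsfix k hk).mul_right hsc, mul_assoc p k c⟩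

end Cfsg.Agent.H35.Collins
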