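import Cfsg.Agent.H35.Collins.Solvable

/-!
Passing between a subgroup with an acting element and the group they generate; the solvable case
without a generation hypothesis.
-/

set_option autoImplicit false

namespace Cfsg.Agent.H35.Collins

open Subgroup

universe u

variable {X : Type u} [Group X] [Finite X] {s : X} {G : Subgroup X}

theorem Good.subgroupOf (h : Good s G) {H : Subgroup X} (hG : G ≤ H) (hs : s ∈ H) :
    Good (⟨s, hs⟩ : H) (G.subgroupOf H) where
  pow := Subtype.ext (by simpa using h.pow)
  norm := by
    rw [mem_normalizer_iff]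
    intro x
    exact mem_normalizer_iff.mp h.norm (x : X)
  three := by
    rw [Nat.card_congr (subgroupOfEquivOfLe hG).toEquiv]; exact h.three
  comm x hx y hy hsx hsy :=
    Subtype.ext (h.comm x hx y hy (hsx.map H.subtype) (hsy.map H.subtype)).eq
  odd x hx hsx hxx :=
    Subtype.ext (h.odd x hx (hsx.map H.subtype) (congrArg Subtype.val hxx))

omit [Finite X] in
theorem subgroupOf_sup_zpowers (G : Subgroup X) (s : X) :
    G.subgroupOf (G ⊔ zpowers s) ⊔
      zpowers (⟨s, mem_sup_right (mem_zpowers s)⟩ : (G ⊔ zpowers s : Subgroup X)) = ⊤ := by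
  apply map_injective (G ⊔ zpowers s).subtype_injective
  rw [Subgroup.map_sup, map_subgroupOf_eq_of_le le_sup_left, MonoidHom.map_zpowers,
    ← MonoidHom.range_eq_map, range_subtype]
  rfl

/-- The solvable case. -/
theorem Good.exists_split (h : Good s G) (hsol : Group.IsSolvable G) : ∃ O L, Split s G O L := by
  set H := G ⊔ zpowers s with hH
  have hs : s ∈ H := mem_sup_right (mem_zpowers s)
  have hGH : G ≤ H := le_sup_left
  have hsol' : Group.IsSolvable (G.subgroupOf H) := by
    haveI := hsol
    exact Group.isSolvable_of_isSolvable_injective (f := (subgroupOfEquivOfLe hGH).toMonoidHom)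
      (subgroupOfEquivOfLe hGH).injective
  obtain ⟨O, L, hO⟩ := exists_split_aux _ (⟨s, hs⟩ : H) (G.subgroupOf H)
    (subgroupOf_sup_zpowers G s) (h.subgroupOf hGH hs) hsol' rfl
  have hG : (G.subgroupOf H).map H.subtype = G := map_subgroupOf_eq_of_le hGH
  refine ⟨O.map H.subtype, L.map H.subtype, map_mono hO.oL, ?_, ?_, ?_, ?_, ?_, ?_, ?_, ?_, ?_⟩
  · exact (map_mono hO.lG).trans hG.le
  · exact hG.ge.trans ((map_mono hO.normO).trans (le_normalizer_map _))
  · exact hG.ge.trans ((map_mono hO.normL).trans (le_normalizer_map _))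
  · rw [card_map_of_injective H.subtype_injective]; exact hO.odd
  · rw [relIndex_map_map_of_injective _ _ H.subtype_injective]; exact hO.two
  · have h1 := hO.index
    rwa [← relIndex_map_map_of_injective _ _ H.subtype_injective, hG] at h1
  · exact le_normalizer_map _ (mem_map_of_mem H.subtype hO.sO)
  · exact le_normalizer_map _ (mem_map_of_mem H.subtype hO.sL)
  · intro g hg
    obtain ⟨l, hl, c, hc, hsc, e⟩ := hO.cover ⟨g, hGH hg⟩ hg
    exact ⟨l, mem_map_of_mem H.subtype hl, c, hc, hsc.map H.subtype, congrArg Subtype.val e⟩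

end Cfsg.Agent.H35.Collins
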